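import Cfsg.Agent.H665.RIM.Defs
import Cfsg.Agent.H477.HC.RowSp
import Cfsg.Agent.H62.SpMult

/-!
# S4816, RIM-L-PSP: `NBall p (PSp n F)`, `F` of odd characteristic `≠ p` (helper365)

* `nb_of_cover` : `NBall p S` from the characters of a perfect group `P` with trivial Schur multiplier over `S`;
* `exists_cus_neg` : cuspidal characters of `GL_k(K)`, not self-dual, with `-1` acting as `-1`;
* `sp_char_neg` : characters of `Sp_{2m}(K)` with `-1` acting as `-1`;
* `nb_psp` : the row.
-/

set_option autoImplicit false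

open scoped ComplexConjugate
open Cfsg

namespace Cfsg.Agent.H365.RIM

open Cfsg.Agent.H665.RIM Cfsg.Agent.Characters Module Cfsg.Agent.H53.HC Cfsg.Agent.H477.HC Cfsg.Agent.H139.Cusp

universe u v w

/-- **`NBall` from the universal cover**: `P` perfect with trivial Schur multiplier, a central extension of `S`; it is
enough to find, for the nontrivial linear characters `lam` of the kernel with image of order prime to `p`, an irreducible
character over `lam` of degree divisible by `p`. -/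
theorem nb_of_cover {P : Type v} [Group P] [Finite P] {S : Type u} [Group S] {p : ℕ} (hP : commutator P = ⊤)
    (hM : Cfsg.HasCyclicSchurMultiplier P 1) (π0 : P →* S) (hs : Function.Surjective π0)
    (h : ∀ lam : π0.ker →* ℂˣ, lam ≠ 1 → ¬ p ∣ Nat.card lam.range →
      ∃ χ : P → ℂ, IsIrrCharacter P χ ∧ (∀ z : π0.ker, χ z = χ 1 * lam z) ∧ p ∣ charDegree χ) : NBall p S := by
  intro m hm hpm E _ _ π hπ hker hperf hcard l hl
  obtain ⟨η, hη⟩ := H487.exists_lift_of_trivial (P := P) ⟨hP⟩ hM π0 hπ hker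
  have hηs : Function.Surjective η :=
    H60.CoverMult.surjective_of_comp hP hs (σ := π) ⟨hπ, hker, by rw [hperf]; exact le_top⟩ hη
  have hη' : ∀ x, π (η x) = π0 x := fun x => DFunLike.congr_fun hη x
  let r : π0.ker →* π.ker := (η.comp π0.ker.subtype).codRestrict π.ker (fun x => by
    rw [MonoidHom.mem_ker]
    show π (η x) = 1
    rw [hη']
    exact x.2)
  have hrs : Function.Surjective r := by
    intro z
    obtain ⟨x, hx⟩ := hηs z
    have hx0 : x ∈ π0.ker := by
      rw [MonoidHom.mem_ker, ← hη', hx]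
      exact z.2
    exact ⟨⟨x, hx0⟩, Subtype.ext hx⟩
  have hrange : (l.comp r).range = l.range := by
    rw [MonoidHom.range_comp, MonoidHom.range_eq_top.2 hrs, ← MonoidHom.range_eq_map]
  have hcl : Nat.card l.range = m := by
    rw [← hcard]
    exact (Nat.card_congr (MonoidHom.ofInjective hl).toEquiv).symm
  obtain ⟨χ, hχ, hχz, hχp⟩ := h (l.comp r) (by
    intro h1
    have h2 : (l.comp r).range = ⊥ := by
      rw [h1]
      exact MonoidHom.range_one
    rw [hrange] at h2
    rw [h2, Subgroup.card_bot] at hcl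
    omega) (by rw [hrange, hcl]; exact hpm)
  obtain ⟨η', hη1, hη2⟩ := exists_quot η.ker hχ (fun k hk => by
    have hk0 : k ∈ π0.ker := by
      rw [MonoidHom.mem_ker, ← hη', MonoidHom.mem_ker.1 hk, map_one]
    have h1 : χ k = χ 1 * ((l.comp r) ⟨k, hk0⟩ : ℂˣ) := hχz ⟨k, hk0⟩
    have h2 : r ⟨k, hk0⟩ = 1 := Subtype.ext (MonoidHom.mem_ker.1 hk)
    rw [h1, MonoidHom.comp_apply, h2, map_one, Units.val_one, mul_one])
  let e : P ⧸ η.ker ≃* E := QuotientGroup.quotientKerEquivOfSurjective η hηs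
  have he : ∀ x : P, e.symm (η x) = (x : P ⧸ η.ker) := by
    intro x
    rw [MulEquiv.symm_apply_eq]
    rfl
  have hval : ∀ x : P, (η' ∘ e.symm.toMonoidHom) (η x) = χ x := by
    intro x
    show η' (e.symm (η x)) = χ x
    rw [he, hη2]
  have hval1 : (η' ∘ e.symm.toMonoidHom) 1 = χ 1 := by
    have := hval 1
    rwa [map_one] at this
  refine ⟨η' ∘ e.symm.toMonoidHom, Core.isIrr_comp e.symm.toMonoidHom e.symm.surjective hη1, ?_, ?_⟩
  · intro z
    obtain ⟨x, hx⟩ := hrs z
    have h1 : (z : E) = η x := by rw [← hx]; rfl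
    rw [h1, hval, hval1, hχz x, MonoidHom.comp_apply, hx]
  · have h1 : charDegree (η' ∘ e.symm.toMonoidHom) = charDegree χ := by
      unfold charDegree
      rw [hval1]
    rw [h1]
    exact hχp

/-- cuspidal characters which are not self-dual, faithful on `-1` -/
theorem exists_cus_neg {K : Type u} [Field K] [Finite K] {q : ℕ} (hq : Nat.card K = q) (h2K : (2 : K) ≠ 0) (k : ℕ)
    (hk : 0 < k) (h5 : 3 < q ^ k) : ∃ c : GL (Fin k) K → ℂ, Cus K k (RingHom.id K) (fun z => z = 1) c ∧
      c (Matrix.GeneralLinearGroup.scalar (Fin k) (-1)) = - c 1 := by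
  classical
  have h2 : 2 < q := by
    have h3 : 1 < q := by rw [← hq]; exact Finite.one_lt_card
    rcases Nat.lt_or_ge 2 q with h | h
    · exact h
    · exfalso
      have h4 : q = 2 := by omega
      apply h2K
      let _ := Fintype.ofFinite K
      have h6 := FiniteField.cast_card_eq_zero K
      rw [← Nat.card_eq_fintype_card, hq, h4] at h6
      exact_mod_cast h6
  have hreg : ∀ i, 0 < i → i < k → ¬ (Nat.card K ^ k - 1) ∣ 1 * (Nat.card K ^ i - 1) := by
    intro i hi hik h
    rw [hq, one_mul] at h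
    have h1 : q ^ i < q ^ k := Nat.pow_lt_pow_right (by omega) hik
    have h3 : 1 < q ^ i := Nat.one_lt_pow hi.ne' (by omega)
    exact absurd (Nat.le_of_dvd (by omega) h) (by omega)
  have hdual : ∀ i, i < k → ¬ (Nat.card K ^ k - 1) ∣ 1 * Nat.card K ^ i + 1 := by
    intro i hik h
    rw [hq, one_mul] at h
    have h1 := Nat.le_of_dvd (by omega) h
    rcases Nat.eq_zero_or_pos i with rfl | hi
    · rw [pow_zero] at h1 h
      omega
    · have h6 : q ^ i ≤ q ^ (k - 1) := Nat.pow_le_pow_right (by omega) (by omega)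
      have h7 : q ^ k = q ^ (k - 1) * q := by rw [← pow_succ]; congr 1; omega
      have h8 : q ≤ q ^ (k - 1) := by
        calc q = q ^ 1 := (pow_one q).symm
          _ ≤ _ := Nat.pow_le_pow_right (by omega) (by omega)
      have h10 : q ^ (k - 1) * 3 ≤ q ^ (k - 1) * q := Nat.mul_le_mul_left _ h2
      omega
  obtain ⟨L, _, _, _, hL⟩ := exists_L K k hk
  obtain ⟨θ, hθ⟩ := exists_theta L
  have hcardL : Nat.card Lˣ = Nat.card K ^ k - 1 := by
    rw [Nat.card_units, Module.natCard_eq_pow_finrank (K := K), hL]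
  have hR : Regular K k (powTheta θ 1 one_ne_zero) := (regular_powTheta_iff hθ one_ne_zero hL).2 hreg
  refine ⟨psi L (powTheta θ 1 one_ne_zero), ⟨psi_isIrr _ hL hR, psi_isCusp L _, ?_, ?_, ?_⟩, ?_⟩
  · intro h
    have h1 : ∀ g : ((Fin k → K) →ₗ[K] (Fin k → K))ˣ,
        cusp L (powTheta θ 1 one_ne_zero) (g : (Fin k → K) →ₗ[K] (Fin k → K)) =
        cusp L (conjTheta (powTheta θ 1 one_ne_zero)) (g : (Fin k → K) →ₗ[K] (Fin k → K)) := by
      intro g
      let A : GL (Fin k) K := Matrix.GeneralLinearGroup.toLin.symm g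
      have h2 := congrFun h A
      have h3 : ((Matrix.GeneralLinearGroup.map (RingHom.id K)).comp (invT k)) A = invT k A := by
        ext i j
        rfl
      rw [Function.comp_apply, h3, psi_invT _ hL] at h2
      have h4 : psi L (powTheta θ 1 one_ne_zero) A =
          cusp L (powTheta θ 1 one_ne_zero) (g : (Fin k → K) →ₗ[K] (Fin k → K)) := by
        have h5 : Matrix.GeneralLinearGroup.toLin A = g := MulEquiv.apply_symm_apply _ g
        rw [← h5]
        rfl
      rw [h4, cusp_star] at h2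
      exact h2.symm
    obtain ⟨i, hi, h2⟩ := (cusp_eq_iff (V := Fin k → K) (powTheta θ 1 one_ne_zero)
      (conjTheta (powTheta θ 1 one_ne_zero)) (by rw [Module.finrank_fin_fun, hL]) (by rw [hL]; exact hR)).1 h1
    rw [hL] at hi
    have h3 := (conj_powTheta_eq_iff hθ one_ne_zero one_ne_zero (pow_ne_zero i (Nat.card_pos (α := K)).ne')).1 h2
    rw [hcardL] at h3
    exact hdual i hi h3
  · rintro z rfl
    rw [map_one]
  · rw [psi_one L _ hk, degP_eq_Ico]
  · have h1 := psi_scalar (powTheta θ 1 one_ne_zero) hL (-1) 1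
    rw [mul_one] at h1
    rw [h1, powTheta_apply, pow_one, Units.val_neg, Units.val_one, map_neg, map_one]
    have h3 : θ (-1) * θ (-1) = 1 := by rw [← map_mul, neg_one_mul, neg_neg, map_one]
    have h4 : θ (-1) ≠ 1 := by
      intro h
      rw [← map_one θ] at h
      have h6 := hθ h
      apply h2K
      apply (algebraMap K L).injective
      rw [map_zero, map_ofNat]
      linear_combination (-1 : L) * h6
    rw [(mul_self_eq_one_iff.1 h3).resolve_left h4, neg_one_mul]

/-- the value at `-1` -/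
theorem hc_neg {K : Type u} [Field K] {V : Type v} [AddCommGroup V] [Module K V] (F : CForm K V) {k : ℕ}
    [Fintype (F.Om k)] [FiniteDimensional K V] {c : GL (Fin k) K → ℂ} (hcl : IsClassFunction _ c)
    {z : F.iso} {a : Kˣ} (hz : ∀ v, (z : V ≃ₗ[K] V) v = (a : K) • v)
    (hca : c (Matrix.GeneralLinearGroup.scalar (Fin k) a) = - c 1) :
    F.hc c (fun _ _ => 1) z = - F.hc c (fun _ _ => 1) 1 := by
  classical
  unfold CForm.hc
  rw [← Finset.sum_neg_distrib]
  refine Finset.sum_congr rfl fun W _ => ?_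
  rw [mul_one, mul_one]
  have h : W.1.map (F.iso.subtype z : V →ₗ[K] V) = W.1 := map_eq_of_le F.iso.subtype fun w hw => by
    change (z : V ≃ₗ[K] V) w ∈ W.1
    rw [hz]; exact W.1.smul_mem _ hw
  have h' : W.1.map (F.iso.subtype 1 : V →ₗ[K] V) = W.1 := Submodule.map_id _
  rw [flagTerm_of F.iso.subtype c h, flagTerm_of F.iso.subtype c h', cl_eq hcl (finBasisOfFinrankEq K W.1 W.2.2)]
  have e2 : res (F.iso.subtype 1) W.1 h' = 1 := by
    ext w
    rfl
  rw [e2, cl_one hcl (finBasisOfFinrankEq K W.1 W.2.2), ← hca]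
  congr 1
  ext i j
  rw [coe_glE, LinearMap.toMatrix_apply]
  have e2 : (res (F.iso.subtype z) W.1 h : W.1 →ₗ[K] W.1) (finBasisOfFinrankEq K W.1 W.2.2 j) =
      (a : K) • (finBasisOfFinrankEq K W.1 W.2.2 j) := Subtype.ext (hz _)
  rw [e2, map_smul, Finsupp.smul_apply, Basis.repr_self, smul_eq_mul, Matrix.GeneralLinearGroup.coe_scalar,
    Matrix.scalar_apply, Matrix.diagonal_apply, Finsupp.single_apply]
  by_cases hij : i = j
  · simp [hij]
  · rw [if_neg hij, if_neg (Ne.symm hij), mul_zero]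

/-- characters of `Sp` with `-1` acting as `-1` -/
theorem sp_char_neg {K : Type u} [Field K] [Finite K] {k n : ℕ} {c : GL (Fin k) K → ℂ}
    (hc : Cus K k (RingHom.id K) (fun z => z = 1) c)
    (hcn : c (Matrix.GeneralLinearGroup.scalar (Fin k) (-1)) = - c 1) :
    ∃ χ : Matrix.symplecticGroup (Fin (k + n)) K → ℂ, IsIrrCharacter _ χ ∧
      χ 1 = (dg (CForm.spF K (k + n)) k : ℂ) ∧
      ∀ z : Matrix.symplecticGroup (Fin (k + n)) K, z.1 = -1 → χ z = - χ 1 := by
  classical
  obtain ⟨p, hp⟩ := CharP.exists K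
  have hpr : p.Prime := (CharP.char_is_prime_or_zero K p).resolve_right (CharP.char_ne_zero_of_finite K p)
  have : Fact p.Prime := ⟨hpr⟩
  obtain ⟨⟨W₀, hW₀⟩, -⟩ := CForm.spF_frame (K := K) (p := p) k n
  have := finite_Om (CForm.spF K (k + n)) k
  have := finite_iso (CForm.spF K (k + n))
  let _ := Fintype.ofFinite ((CForm.spF K (k + n)).Om k)
  let _ := Fintype.ofFinite (CForm.spF K (k + n)).iso
  have hcl := Core.isIrr_isClassFunction hc.irr
  set χ : (CForm.spF K (k + n)).iso → ℂ := (CForm.spF K (k + n)).hc c (fun _ _ => 1) with hχd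
  have hχ : IsIrrCharacter _ χ := (CForm.spF K (k + n)).isIrr_hc_one hc.irr hc.cusp hc.dual hW₀
  have hχ1 : χ 1 = (dg (CForm.spF K (k + n)) k : ℂ) := by
    rw [hχd, (CForm.spF K (k + n)).hc_one hcl (fun _ _ => 1) (d := 1) (fun _ _ => rfl), hc.deg, mul_one]
    unfold dg
    rw [Nat.cast_mul]
  have hfin : Finite (Matrix.symplecticGroup (Fin (k + n)) K) := inferInstance
  refine ⟨χ ∘ (isoSp (k + n) K).toMonoidHom,
    Core.isIrr_comp (isoSp (k + n) K).toMonoidHom (isoSp (k + n) K).surjective hχ, ?_, ?_⟩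
  · show χ (isoSp (k + n) K 1) = _
    rw [map_one, hχ1]
  · intro z hz
    show χ (isoSp (k + n) K z) = - χ (isoSp (k + n) K 1)
    rw [map_one]
    refine hc_neg (CForm.spF K (k + n)) hcl (a := -1) (fun v => ?_) hcn
    rw [isoSp_apply, hz, Matrix.neg_mulVec, Matrix.one_mulVec, Units.val_neg, Units.val_one, neg_one_smul]

/-- **Row RIM-L-PSP**: `PSp_2m(K)`, `K` of odd characteristic different from `r`. -/
theorem exists_neg_dvd {K : Type u} [Field K] [Finite K] (h2K : (2 : K) ≠ 0) {m : ℕ} (hm : 2 ≤ m)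
    {r : ℕ} (hr : r.Prime) (hrK : (r : K) ≠ 0) (hd : r ∣ Nat.card (PSp m K)) :
    ∃ χ : Matrix.symplecticGroup (Fin m) K → ℂ, IsIrrCharacter _ χ ∧
      (∀ z : Matrix.symplecticGroup (Fin m) K, z.1 = -1 → χ z = - χ 1) ∧ r ∣ charDegree χ := by
  classical
  obtain ⟨p, hpc⟩ := CharP.exists K
  have hp : p.Prime := (CharP.char_is_prime_or_zero K p).resolve_right (CharP.char_ne_zero_of_finite K p)
  have : Fact p.Prime := ⟨hp⟩
  have hrp : r ≠ p := by
    rintro rfl
    exact hrK (CharP.cast_eq_zero K r)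
  obtain ⟨s, hs⟩ := card_pow K p
  have hq3 : 3 ≤ Nat.card K := by
    have h3 : 1 < Nat.card K := Finite.one_lt_card
    by_contra h
    have h4 : Nat.card K = 2 := by omega
    apply h2K
    let _ := Fintype.ofFinite K
    have h6 := FiniteField.cast_card_eq_zero K
    rw [← Nat.card_eq_fintype_card, h4] at h6
    exact_mod_cast h6
  have hrq : ¬ r ∣ Nat.card K := by
    rw [hs]; intro h; exact hrp ((Nat.prime_dvd_prime_iff_eq hr hp).1 (hr.dvd_of_dvd_pow h))
  have hpow : ∀ k, 2 ≤ k → 3 < Nat.card K ^ k := by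
    intro k hk
    calc 3 < 3 ^ 2 := by norm_num
      _ ≤ Nat.card K ^ 2 := Nat.pow_le_pow_left hq3 2
      _ ≤ _ := Nat.pow_le_pow_right (by omega) hk
  have hdeg : ∀ {n : ℕ} {χ : Matrix.symplecticGroup (Fin n) K → ℂ} {d : ℕ}, χ 1 = (d : ℂ) → charDegree χ = d := by
    intro n χ d h
    unfold charDegree
    rw [h, Complex.natCast_re, Nat.floor_natCast]
  -- `r` divides some factor
  have hd1 : r ∣ Nat.card (Matrix.symplecticGroup (Fin m) K) := hd.trans (Subgroup.card_quotient_dvd_card _)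
  rw [Nat.card_congr (isoSp m K).toEquiv, card_spF] at hd1
  have hd2 : r ∣ ∏ i ∈ Finset.range m, (Nat.card K ^ (2 * (i + 1)) - 1) :=
    (hr.dvd_mul.1 hd1).resolve_left fun h => hrq (hr.dvd_of_dvd_pow h)
  by_cases hA : r ∣ (Nat.card K ^ m + 1) * ∏ i ∈ Finset.range (m - 1), (Nat.card K ^ (2 * (i + 1)) - 1)
  · obtain ⟨c, hc, hcn⟩ := exists_cus_neg (K := K) rfl h2K m (by omega) (hpow m hm)
    obtain ⟨χ, hχ, hχ1, hχn⟩ := sp_char_neg (k := m) (n := 0) hc hcn
    obtain ⟨e, he⟩ := psp_dvd_top K (p := p) (m := m) (by omega)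
    refine ⟨χ, hχ, hχn, ?_⟩
    rw [hdeg hχ1]
    have := prime_pow_dvd (t := 1) hr hp hrp (by rw [pow_one]; exact hA.trans he)
    rwa [pow_one] at this
  · have hA1 : ¬ r ∣ Nat.card K ^ m + 1 := fun h => hA (Dvd.dvd.mul_right h _)
    have hA2 : ∀ i, i < m - 1 → ¬ r ∣ Nat.card K ^ (2 * (i + 1)) - 1 := fun i hi h =>
      hA (Dvd.dvd.mul_left (h.trans (Finset.dvd_prod_of_mem (fun i => Nat.card K ^ (2 * (i + 1)) - 1)
        (Finset.mem_range.2 hi))) _)
    have hB : r ∣ Nat.card K ^ (2 * m) - 1 := by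
      obtain ⟨i, hi, hi'⟩ := (Prime.dvd_finsetProd_iff hr.prime _).1 hd2
      rw [Finset.mem_range] at hi
      rcases Nat.lt_or_ge i (m - 1) with h | h
      · exact absurd hi' (hA2 i h)
      · have : i + 1 = m := by omega
        rwa [this] at hi'
    have hB' : r ∣ Nat.card K ^ m - 1 := by
      have h4 : Nat.card K ^ (2 * m) - 1 = (Nat.card K ^ m + 1) * (Nat.card K ^ m - 1) := by
        rw [← Nat.sq_sub_sq, one_pow, ← pow_mul, mul_comm]
      rw [h4] at hB
      exact (hr.dvd_mul.1 hB).resolve_left hA1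
    have hm3 : 3 ≤ m := by
      by_contra h
      have hm2 : m = 2 := by omega
      have := hA2 0 (by omega)
      rw [hm2] at hB'
      exact this hB'
    obtain ⟨c, hc, hcn⟩ := exists_cus_neg (K := K) rfl h2K (m - 1) (by omega) (hpow (m - 1) (by omega))
    obtain ⟨χ, hχ, hχ1, hχn⟩ := sp_char_neg (k := m - 1) (n := 1) hc hcn
    obtain ⟨e, he⟩ := psp_dvd K (p := p) (k := m - 1) (n := 1) (by omega)
    have hm1 : m - 1 + 1 = m := by omega
    have h6 : r ∣ p ^ e * (dg (CForm.spF K (m - 1 + 1)) (m - 1) * (Nat.card K ^ (m - 1) - 1)) := by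
      refine Dvd.dvd.trans ?_ he
      refine Dvd.dvd.trans ?_ (Finset.dvd_prod_of_mem _ (Finset.mem_Ico.2 ⟨(by omega : 1 ≤ m - 1), by omega⟩))
      rw [hm1]
      exact hB
    have h7 : r ∣ dg (CForm.spF K (m - 1 + 1)) (m - 1) * (Nat.card K ^ (m - 1) - 1) := by
      have := prime_pow_dvd (t := 1) hr hp hrp (by rw [pow_one]; exact h6)
      rwa [pow_one] at this
    have h8 : ¬ r ∣ Nat.card K ^ (m - 1) - 1 := by
      intro h
      apply hA2 (m - 2) (by omega)
      refine h.trans ?_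
      have h9 : m - 2 + 1 = m - 1 := by omega
      rw [h9, mul_comm, pow_mul]
      simpa using Nat.sub_dvd_pow_sub_pow (Nat.card K ^ (m - 1)) 1 2
    have h9 := (hr.dvd_mul.1 h7).resolve_right h8
    have h10 : ∃ χ : Matrix.symplecticGroup (Fin (m - 1 + 1)) K → ℂ, IsIrrCharacter _ χ ∧
        (∀ z : Matrix.symplecticGroup (Fin (m - 1 + 1)) K, z.1 = -1 → χ z = - χ 1) ∧ r ∣ charDegree χ :=
      ⟨χ, hχ, hχn, by rw [hdeg hχ1]; exact h9⟩
    rwa [hm1] at h10

/-- **Row RIM-L-PSP** of S4816. -/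
theorem nb_psp {S : Type u} [Group S] {F : Type w} [Field F] [Finite F] (h2F : (2 : F) ≠ 0) {n : ℕ} (hn : 2 ≤ n)
    (e : S ≃* PSp n F) {p : ℕ} (hp : p.Prime) (hpF : (p : F) ≠ 0) (hd : p ∣ Nat.card S) : NBall p S := by
  classical
  let _ := Fintype.ofFinite F
  have hq3 : 3 ≤ Fintype.card F := by
    have h3 : 1 < Fintype.card F := Fintype.one_lt_card
    by_contra h
    have h4 : Fintype.card F = 2 := by omega
    apply h2F
    have h6 := FiniteField.cast_card_eq_zero F
    rw [h4] at h6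
    exact_mod_cast h6
  have hperf := H62.SpMult.perfect_Sp (F := F) (m := n) hn (fun _ => hq3)
  have hM := H62.SpMult.hasTrivial_Sp (F := F) (m := n) hn (fun _ => hq3) (by omega)
  let π0 : Matrix.symplecticGroup (Fin n) F →* S :=
    e.symm.toMonoidHom.comp (QuotientGroup.mk' (Subgroup.center (Matrix.symplecticGroup (Fin n) F)))
  have hs : Function.Surjective π0 := e.symm.surjective.comp (QuotientGroup.mk'_surjective _)
  have hker : ∀ x ∈ π0.ker, x ∈ Subgroup.center (Matrix.symplecticGroup (Fin n) F) := by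
    intro x hx
    rw [MonoidHom.mem_ker] at hx
    have h1 : e.symm (QuotientGroup.mk' (Subgroup.center (Matrix.symplecticGroup (Fin n) F)) x) = 1 := hx
    rw [map_eq_one_iff _ e.symm.injective] at h1
    exact (QuotientGroup.eq_one_iff x).1 h1
  refine nb_of_cover hperf hM π0 hs ?_
  intro lam hlam _
  obtain ⟨χ, hχ, hχn, hχp⟩ := exists_neg_dvd h2F hn hp hpF (by
    rwa [Nat.card_congr e.toEquiv] at hd)
  refine ⟨χ, hχ, ?_, hχp⟩
  -- the element `-1`
  have hcase : ∀ z : π0.ker, z = 1 ∨ ((z : Matrix.symplecticGroup (Fin n) F) : Matrix (Fin n ⊕ Fin n) (Fin n ⊕ Fin n) F) = -1 := by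
    intro z
    rcases Cfsg.Agent.ClassicalGeometry.SympInvolutions.center_eq (hker z z.2) with h | h
    · left
      exact Subtype.ext (Subtype.ext h)
    · right
      exact h
  intro z
  rcases hcase z with h | h
  · rw [h, map_one, Units.val_one, mul_one]
    rfl
  · have hz2 : z * z = 1 := by
      apply Subtype.ext
      apply Subtype.ext
      show ((z : Matrix.symplecticGroup (Fin n) F) : Matrix (Fin n ⊕ Fin n) (Fin n ⊕ Fin n) F) *
        ((z : Matrix.symplecticGroup (Fin n) F) : Matrix (Fin n ⊕ Fin n) (Fin n ⊕ Fin n) F) = 1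
      rw [h, neg_mul_neg, one_mul]
    have h1 : lam z ≠ 1 := by
      intro h1
      apply hlam
      ext y
      rcases hcase y with h3 | h3
      · rw [h3, map_one, map_one]
      · have : y = z := Subtype.ext (Subtype.ext (h3.trans h.symm))
        rw [this, h1]
        rfl
    have h3 : ((lam z : ℂˣ) : ℂ) = -1 := by
      have h4 : ((lam z : ℂˣ) : ℂ) * (lam z : ℂˣ) = 1 := by
        rw [← Units.val_mul, ← map_mul, hz2, map_one, Units.val_one]
      exact (mul_self_eq_one_iff.1 h4).resolve_left (fun h5 => h1 (Units.ext h5))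
    rw [hχn z h, h3, mul_neg_one]

end Cfsg.Agent.H365.RIM
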